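import Mathlib
import Cfsg.Prelude.Def_GeometricClasses
import Cfsg.Agent.S0242
import Cfsg.Agent.S0278
import Cfsg.Agent.H956.PrimeElt
import Cfsg.Agent.H956.UnitSim

/-!
# The index of the unitary similarity group in `SL_n(q₀²)`
-/

set_option autoImplicit false

namespace Cfsg.Agent.H956.UnitIndex

open Matrix Polynomial
open scoped MatrixGroups
open Cfsg.Agent.LieClassical.HermBasic Cfsg.Agent.H956.Conj Cfsg.Agent.H956.EigMult Cfsg.Agent.H956.PrimeElt
open Cfsg.Agent.H956.UnitSim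

/-- `∏_{i<n} (q^n - q^i) = q^{n(n-1)/2} ∏_{i<n} (q^{i+1} - 1)`. -/
theorem prod_sub (q n : ℕ) :
    ∏ i : Fin n, (q ^ n - q ^ (i : ℕ)) = q ^ (n * (n - 1) / 2) * ∏ i ∈ Finset.range n, (q ^ (i + 1) - 1) := by
  rw [Fin.prod_univ_eq_prod_range (fun i => q ^ n - q ^ i) n]
  have h1 : ∀ i ∈ Finset.range n, q ^ n - q ^ i = q ^ i * (q ^ (n - i) - 1) := by
    intro i hi
    have hi' := Finset.mem_range.1 hi
    rw [Nat.mul_sub, mul_one, ← pow_add]
    congr 2
    omega
  rw [Finset.prod_congr rfl h1, Finset.prod_mul_distrib, Finset.prod_pow_eq_pow_sum, Finset.sum_range_id]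
  congr 1
  rw [← Finset.prod_range_reflect]
  refine Finset.prod_congr rfl fun i hi => ?_
  have hi' := Finset.mem_range.1 hi
  congr 2
  omega

variable {F : Type*} [Field F] [Fintype F] {q₀ n : ℕ} {f : (Fin n → F) → (Fin n → F) → F}

/-- `|SU_n(q₀)|` divides the order of the intersection of the similarity group and `SL_n(q₀²)`. -/
theorem card_SU_dvd (hF : Fintype.card F = q₀ ^ 2) (hf : Cfsg.Geo.IsUnitaryFormPow q₀ f) :
    Nat.card (Cfsg.SU n F q₀) ∣
      Nat.card (Cfsg.Geo.similarityGroup f ⊓ Cfsg.Geo.specialLinear (Fin n) F : Subgroup (GL (Fin n) F)) := by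
  obtain ⟨P, hP⟩ := exists_frame hF hf
  have hkey : ∀ x : Cfsg.SU n F q₀, P * (Matrix.SpecialLinearGroup.toGL (x : Matrix.SpecialLinearGroup (Fin n) F)) * P⁻¹ ∈
      (Cfsg.Geo.similarityGroup f ⊓ Cfsg.Geo.specialLinear (Fin n) F : Subgroup (GL (Fin n) F)) := by
    intro x
    refine ⟨⟨1, fun u v => ?_⟩, ?_⟩
    · have hx : ∀ u v, Cfsg.hermForm n F q₀ (((x : Matrix.SpecialLinearGroup (Fin n) F) : Matrix (Fin n) (Fin n) F) *ᵥ u)
          (((x : Matrix.SpecialLinearGroup (Fin n) F) : Matrix (Fin n) (Fin n) F) *ᵥ v) = Cfsg.hermForm n F q₀ u v :=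
        x.2
      rw [Units.val_mul, Units.val_mul, ← Matrix.mulVec_mulVec, ← Matrix.mulVec_mulVec, ← Matrix.mulVec_mulVec,
        ← Matrix.mulVec_mulVec, hP]
      change Cfsg.hermForm n F q₀ (((x : Matrix.SpecialLinearGroup (Fin n) F) : Matrix (Fin n) (Fin n) F) *ᵥ _)
        (((x : Matrix.SpecialLinearGroup (Fin n) F) : Matrix (Fin n) (Fin n) F) *ᵥ _) = _
      rw [hx, ← hP, Matrix.mulVec_mulVec, Matrix.mulVec_mulVec, ← Units.val_mul, mul_inv_cancel, Units.val_one,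
        Matrix.one_mulVec, Matrix.one_mulVec, Units.val_one, one_mul]
    · change P * _ * P⁻¹ ∈ Cfsg.Geo.specialLinear (Fin n) F
      unfold Cfsg.Geo.specialLinear
      rw [MonoidHom.mem_ker, map_mul, map_mul, mul_right_comm, ← map_mul, mul_inv_cancel, map_one, one_mul]
      rw [← Units.val_inj]
      exact (x : Matrix.SpecialLinearGroup (Fin n) F).2
  let φ : Cfsg.SU n F q₀ →* (Cfsg.Geo.similarityGroup f ⊓ Cfsg.Geo.specialLinear (Fin n) F : Subgroup (GL (Fin n) F)) :=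
    { toFun := fun x => ⟨_, hkey x⟩
      map_one' := by
        apply Subtype.ext
        simp
      map_mul' := fun x y => by
        apply Subtype.ext
        simp [mul_assoc] }
  have hinj : Function.Injective φ := by
    intro x y hxy
    have h1 := congrArg Subtype.val hxy
    have h2 : P * (Matrix.SpecialLinearGroup.toGL (x : Matrix.SpecialLinearGroup (Fin n) F)) * P⁻¹ =
      P * (Matrix.SpecialLinearGroup.toGL (y : Matrix.SpecialLinearGroup (Fin n) F)) * P⁻¹ := h1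
    have h3 := mul_left_cancel (mul_right_cancel h2)
    apply Subtype.ext
    apply Subtype.ext
    exact congrArg (fun z : GL (Fin n) F => (z : Matrix (Fin n) (Fin n) F)) h3
  exact Subgroup.card_dvd_of_injective φ hinj

/-- `|SL_n(q₀²)| (q₀ - 1) = |SU_n(q₀)| q₀^{n(n-1)/2} ∏ (q₀^j + (-1)^j)`. -/
theorem card_SL_eq (hF : Fintype.card F = q₀ ^ 2) (hn : 1 ≤ n) :
    Nat.card (Matrix.SpecialLinearGroup (Fin n) F) * (q₀ - 1) = Nat.card (Cfsg.SU n F q₀) *
      (q₀ ^ (n * (n - 1) / 2) * ∏ i ∈ Finset.range n, (if Even i then q₀ ^ (i + 1) - 1 else q₀ ^ (i + 1) + 1)) := by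
  have h1 := Cfsg.Agent.S0242.result hF n hn
  have h2 := Cfsg.Agent.S0278.result hF n hn
  have hq := two_le hF
  rw [prod_sub] at h1
  have h3 : ∏ i ∈ Finset.range n, ((q₀ ^ 2) ^ (i + 1) - 1) =
      (∏ i ∈ Finset.range n, (if Even i then q₀ ^ (i + 1) + 1 else q₀ ^ (i + 1) - 1)) *
      ∏ i ∈ Finset.range n, (if Even i then q₀ ^ (i + 1) - 1 else q₀ ^ (i + 1) + 1) := by
    rw [← Finset.prod_mul_distrib]
    refine Finset.prod_congr rfl fun i _ => ?_
    have h4 : (q₀ ^ 2) ^ (i + 1) - 1 = (q₀ ^ (i + 1) + 1) * (q₀ ^ (i + 1) - 1) := by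
      rw [← pow_mul, mul_comm 2, pow_mul]
      have := Nat.sq_sub_sq (q₀ ^ (i + 1)) 1
      rw [one_pow] at this
      exact this
    rw [h4]
    split_ifs <;> ring
  have h5 : q₀ ^ 2 - 1 = (q₀ + 1) * (q₀ - 1) := by
    have := Nat.sq_sub_sq q₀ 1
    rw [one_pow] at this
    exact this
  rw [h3, h5] at h1
  have h6 : (q₀ ^ 2) ^ (n * (n - 1) / 2) = q₀ ^ (n * (n - 1) / 2) * q₀ ^ (n * (n - 1) / 2) := by
    rw [← pow_mul, two_mul, pow_add]
  rw [h6] at h1
  have h7 : 0 < q₀ + 1 := by omega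
  apply Nat.eq_of_mul_eq_mul_left h7
  calc (q₀ + 1) * (Nat.card (Matrix.SpecialLinearGroup (Fin n) F) * (q₀ - 1))
      = (q₀ + 1) * (q₀ - 1) * Nat.card (Matrix.SpecialLinearGroup (Fin n) F) := by ring
    _ = _ := by
      rw [h1, ← mul_assoc (q₀ + 1), h2]
      ring

theorem relIndex_dvd (hF : Fintype.card F = q₀ ^ 2) (hf : Cfsg.Geo.IsUnitaryFormPow q₀ f) (hn : 1 ≤ n) :
    (Cfsg.Geo.similarityGroup f).relIndex (Cfsg.Geo.specialLinear (Fin n) F) ∣
      q₀ ^ (n * (n - 1) / 2) * ∏ i ∈ Finset.range n, (if Even i then q₀ ^ (i + 1) - 1 else q₀ ^ (i + 1) + 1) := by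
  obtain ⟨t, ht⟩ := card_SU_dvd hF hf
  have h1 := card_SL_eq (n := n) hF hn
  have h2 : (Cfsg.Geo.similarityGroup f).relIndex (Cfsg.Geo.specialLinear (Fin n) F) *
      Nat.card (Cfsg.Geo.similarityGroup f ⊓ Cfsg.Geo.specialLinear (Fin n) F : Subgroup (GL (Fin n) F)) =
      Nat.card (Cfsg.Geo.specialLinear (Fin n) F) := by
    rw [← Subgroup.inf_relIndex_right, mul_comm, ← Subgroup.relIndex_bot_left, ← Subgroup.relIndex_bot_left]
    exact Subgroup.relIndex_mul_relIndex _ _ _ bot_le inf_le_right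
  have h3 : Nat.card (Cfsg.Geo.specialLinear (Fin n) F) = Nat.card (Matrix.SpecialLinearGroup (Fin n) F) := by
    refine Nat.card_congr ⟨fun x => ⟨(x : GL (Fin n) F), ?_⟩, fun x => ⟨Matrix.SpecialLinearGroup.toGL x, ?_⟩, ?_, ?_⟩
    · have := x.2
      unfold Cfsg.Geo.specialLinear at this
      rw [MonoidHom.mem_ker, ← Units.val_inj] at this
      exact this
    · unfold Cfsg.Geo.specialLinear
      rw [MonoidHom.mem_ker, ← Units.val_inj]
      exact x.2
    · intro x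
      apply Subtype.ext
      apply Units.ext
      rfl
    · intro x
      apply Subtype.ext
      rfl
  have hpos : 0 < Nat.card (Cfsg.SU n F q₀) := Nat.card_pos
  rw [← h3, ← h2, ht] at h1
  refine ⟨t * (q₀ - 1), ?_⟩
  apply Nat.eq_of_mul_eq_mul_left hpos
  rw [← h1]
  ring

/-- if `ord_r(q₀) ≡ 2 mod 4` then `r` does not divide the index. -/
theorem not_dvd_relIndex (hF : Fintype.card F = q₀ ^ 2) (hf : Cfsg.Geo.IsUnitaryFormPow q₀ f) (hn : 1 ≤ n)
    {r : ℕ} [Fact r.Prime] (hr : (r : F) ≠ 0) (hr2 : r ≠ 2) {k : ℕ} (hk : Odd k)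
    (hi : orderOf (q₀ : ZMod r) = 2 * k) :
    ¬ r ∣ (Cfsg.Geo.similarityGroup f).relIndex (Cfsg.Geo.specialLinear (Fin n) F) := by
  intro hdvd
  have hrp : r.Prime := Fact.out
  have hrq : ¬ r ∣ q₀ := by
    intro h
    exact not_dvd_card hF hr (h.trans (Dvd.intro_left (q₀ ^ 1) (by ring)))
  have h1 := hdvd.trans (relIndex_dvd hF hf hn)
  rcases (Nat.Prime.dvd_mul hrp).1 h1 with h | h
  · exact hrq (hrp.dvd_of_dvd_pow h)
  rw [Prime.dvd_finsetProd_iff (Nat.prime_iff.1 hrp)] at h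
  obtain ⟨i, -, hi'⟩ := h
  have hqk : (q₀ : ZMod r) ^ k = -1 := by
    have h2 : ((q₀ : ZMod r) ^ k) ^ 2 = 1 := by
      rw [← pow_mul, mul_comm, ← hi, pow_orderOf_eq_one]
    rcases mul_self_eq_one_iff.1 ((sq _).symm.trans h2) with h3 | h3
    · exfalso
      have := orderOf_dvd_of_pow_eq_one h3
      rw [hi] at this
      have h4 := Nat.le_of_dvd hk.pos this
      have := hk.pos
      omega
    · exact h3
  have hne : (-1 : ZMod r) ≠ 1 := by
    intro h
    have h2 : ((2 : ℕ) : ZMod r) = 0 := by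
      push_cast
      linear_combination -h
    rw [ZMod.natCast_eq_zero_iff] at h2
    exact hr2 ((Nat.prime_dvd_prime_iff_eq hrp Nat.prime_two).1 h2)
  -- `(-q₀)^(i+1) = -1`
  have h3 : (-(q₀ : ZMod r)) ^ (i + 1) = -1 := by
    have hpos : 1 ≤ q₀ ^ (i + 1) := Nat.one_le_pow _ _ (q_pos hF)
    split_ifs at hi' with he
    · have h4 : (((q₀ ^ (i + 1) - 1 : ℕ)) : ZMod r) = 0 := (ZMod.natCast_eq_zero_iff _ _).2 hi'
      rw [Nat.cast_sub hpos] at h4
      push_cast at h4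
      rw [Odd.neg_pow (Even.add_one he)]
      linear_combination -h4
    · have h4 : (((q₀ ^ (i + 1) + 1 : ℕ)) : ZMod r) = 0 := (ZMod.natCast_eq_zero_iff _ _).2 hi'
      push_cast at h4
      rw [Even.neg_pow (by
        rw [Nat.not_even_iff_odd] at he
        exact Odd.add_one he)]
      linear_combination h4
  have h5 : (-(q₀ : ZMod r)) ^ k = 1 := by
    rw [Odd.neg_pow hk, hqk, neg_neg]
  have h6 : (-(q₀ : ZMod r)) ^ (k * (i + 1)) = 1 := by rw [pow_mul, h5, one_pow]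
  rw [mul_comm, pow_mul, h3, Odd.neg_pow hk, one_pow] at h6
  exact hne h6

end Cfsg.Agent.H956.UnitIndex
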