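import Mathlib
import Cfsg.Agent.S0242
import Cfsg.Agent.S0286
import Cfsg.Agent.S0287
import Cfsg.Agent.S0288
import Cfsg.Agent.LieClassical.OrthFourCommon
import Cfsg.Agent.H883.Bridge
import Cfsg.Agent.H955.QCount
import Cfsg.Agent.H956.OrthSim
import Cfsg.Agent.H956.PrimeElt
import Cfsg.Agent.H956.UnitIndex
import Cfsg.Agent.H956.FieldArith

/-!
# The index of the orthogonal similarity group in `SL_n(q)`
-/

set_option autoImplicit false

namespace Cfsg.Agent.H956.OrthIndex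

open Matrix Polynomial
open scoped MatrixGroups
open Cfsg.Agent.H956.Conj Cfsg.Agent.H956.EigMult Cfsg.Agent.H956.OrthSim Cfsg.Agent.H956.UnitIndex
open Cfsg.Agent.LieClassical.QuadForms Cfsg.Agent.LieClassical.OrthCore

section gen

variable {ι : Type} [Fintype ι] [DecidableEq ι] {F : Type*} [Field F] {Q : (ι → F) → F}

theorem gram_of_mul (h2 : (2 : F) ≠ 0) (hQ : Cfsg.Geo.IsNondegenerateQuadraticForm Q) (g : GL ι F) (c : F)
    (hc : ∀ v, Q ((g : Matrix ι ι F) *ᵥ v) = c * Q v) :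
    (g : Matrix ι ι F)ᵀ * gram Q * (g : Matrix ι ι F) = c • gram Q := by
  have key : ∀ v, 2 * Q ((g : Matrix ι ι F) *ᵥ v) =
      v ⬝ᵥ (((g : Matrix ι ι F)ᵀ * gram Q * (g : Matrix ι ι F)) *ᵥ v) := by
    intro v
    rw [two_mul_Q hQ, ← Matrix.mulVec_mulVec, ← Matrix.mulVec_mulVec, Matrix.dotProduct_mulVec v, Matrix.vecMul_transpose]
  have h := eq_zero_of_symm h2 ((g : Matrix ι ι F)ᵀ * gram Q * (g : Matrix ι ι F) - (c : F) • gram Q) (by
    rw [Matrix.transpose_sub, Matrix.transpose_mul, Matrix.transpose_mul, Matrix.transpose_transpose,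
      Matrix.transpose_smul, gram_transpose, Matrix.mul_assoc]) (fun v => by
    rw [Matrix.sub_mulVec, dotProduct_sub, ← key, hc, Matrix.smul_mulVec, dotProduct_smul, ← two_mul_Q hQ, smul_eq_mul]
    ring)
  exact sub_eq_zero.1 h

/-- isometries have determinant `± 1`. -/
theorem det_iso (h2 : (2 : F) ≠ 0) (hQ : Cfsg.Geo.IsNondegenerateQuadraticForm Q) {g : GL ι F}
    (hg : g ∈ Cfsg.isometryGroup F Q) : (g : Matrix ι ι F).det = 1 ∨ (g : Matrix ι ι F).det = -1 := by
  have h := gram_of_mul h2 hQ g 1 (fun v => by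
    rw [one_mul]
    exact Cfsg.Agent.LieClassical.OrthFinite.mem_isometryGroup_iff.1 hg v)
  have h1 := congrArg Matrix.det h
  rw [one_smul, Matrix.det_mul, Matrix.det_mul, Matrix.det_transpose] at h1
  have h3 : (g : Matrix ι ι F).det * (g : Matrix ι ι F).det = 1 := by
    apply mul_right_cancel₀ (det_gram_ne_zero hQ)
    linear_combination h1
  exact mul_self_eq_one_iff.1 h3

theorem card_iso_dvd [Finite F] (h2 : (2 : F) ≠ 0) (hQ : Cfsg.Geo.IsNondegenerateQuadraticForm Q) :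
    Nat.card (Cfsg.isometryGroup F Q) ∣
      2 * Nat.card (Cfsg.Geo.quadSimilarityGroup Q ⊓ Cfsg.Geo.specialLinear ι F : Subgroup (GL ι F)) := by
  have hle : Cfsg.isometryGroup F Q ≤ Cfsg.Geo.quadSimilarityGroup Q := by
    intro g hg
    exact ⟨1, fun v => by
      rw [Units.val_one, one_mul]
      exact Cfsg.Agent.LieClassical.OrthFinite.mem_isometryGroup_iff.1 hg v⟩
  have h1 : Nat.card (Cfsg.isometryGroup F Q ⊓ Cfsg.Geo.specialLinear ι F : Subgroup (GL ι F)) ∣
      Nat.card (Cfsg.Geo.quadSimilarityGroup Q ⊓ Cfsg.Geo.specialLinear ι F : Subgroup (GL ι F)) :=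
    Subgroup.card_dvd_of_le (inf_le_inf_right _ hle)
  refine dvd_trans ?_ (Nat.mul_dvd_mul_left 2 h1)
  have h3 : Nat.card (Cfsg.isometryGroup F Q ⊓ Cfsg.Geo.specialLinear ι F : Subgroup (GL ι F)) *
      (Cfsg.Geo.specialLinear ι F).relIndex (Cfsg.isometryGroup F Q) = Nat.card (Cfsg.isometryGroup F Q) := by
    rw [← Subgroup.inf_relIndex_left, ← Subgroup.relIndex_bot_left, ← Subgroup.relIndex_bot_left]
    exact Subgroup.relIndex_mul_relIndex _ _ _ bot_le inf_le_left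
  rw [← h3, mul_comm]
  apply Nat.mul_dvd_mul_right
  unfold Cfsg.Geo.specialLinear
  rw [Subgroup.relIndex_ker]
  have h4 : (Cfsg.isometryGroup F Q).map (Matrix.GeneralLinearGroup.det : GL ι F →* Fˣ) ≤ Subgroup.zpowers (-1 : Fˣ) := by
    rintro _ ⟨g, hg, rfl⟩
    rcases det_iso h2 hQ hg with h | h
    · have : Matrix.GeneralLinearGroup.det g = 1 := Units.ext h
      rw [this]
      exact one_mem _
    · have : Matrix.GeneralLinearGroup.det g = -1 := Units.ext h
      rw [this]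
      exact Subgroup.mem_zpowers _
  have h5 := Subgroup.card_dvd_of_le h4
  refine h5.trans ?_
  rw [Nat.card_zpowers]
  apply orderOf_dvd_of_pow_eq_one
  rw [neg_one_sq]

/-- transfer of the order of the isometry group. -/
theorem card_iso_eq {ι' : Type} [Fintype ι'] [DecidableEq ι'] {Q' : (ι' → F) → F}
    (e : (ι' → F) ≃ₗ[F] (ι → F)) {c : F} (hc : c ≠ 0) (h : ∀ v, Q (e v) = c * Q' v) :
    Nat.card (Cfsg.isometryGroup F Q') = Nat.card (Cfsg.isometryGroup F Q) := by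
  have h1 : Cfsg.isometryGroup F Q' = Cfsg.isometryGroup F (fun v => c * Q' v) := by
    ext g
    rw [Cfsg.Agent.LieClassical.OrthFinite.mem_isometryGroup_iff, Cfsg.Agent.LieClassical.OrthFinite.mem_isometryGroup_iff]
    refine forall_congr' fun v => ?_
    constructor
    · intro h; rw [h]
    · intro h; exact mul_left_cancel₀ hc h
  obtain ⟨e1⟩ := Cfsg.Agent.LieClassical.OrthFourCommon.exists_isometryGroup_equiv e (fun v => c * Q' v) Q h
  obtain ⟨e2⟩ := Cfsg.Agent.LieClassical.OrthFourCommon.exists_isometryGroup_equiv (LinearEquiv.refl F (ι → F)) Q Q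
    (fun v => rfl)
  rw [h1]
  exact Nat.card_congr (e1.trans e2.symm).toEquiv

/-- `SL` order of `Geo.specialLinear`. -/
theorem card_sl : Nat.card (Cfsg.Geo.specialLinear ι F) = Nat.card (Matrix.SpecialLinearGroup ι F) := by
  refine Nat.card_congr ⟨fun x => ⟨(x : GL ι F), ?_⟩, fun x => ⟨Matrix.SpecialLinearGroup.toGL x, ?_⟩, ?_, ?_⟩
  · have := x.2
    unfold Cfsg.Geo.specialLinear at this
    rw [MonoidHom.mem_ker, ← Units.val_inj] at this
    exact this
  · unfold Cfsg.Geo.specialLinear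
    rw [MonoidHom.mem_ker, ← Units.val_inj]
    exact x.2
  · intro x
    apply Subtype.ext
    apply Units.ext
    rfl
  · intro x
    apply Subtype.ext
    rfl

/-- congruence up to a square factor of the determinant. -/
theorem exists_congr_sq [Finite F] [Nonempty ι] (h2 : (2 : F) ≠ 0) (S S' : Matrix ι ι F) (hS : Sᵀ = S) (hS0 : S.det ≠ 0)
    (hS' : S'ᵀ = S') {t : F} (ht : t ≠ 0) (hdet : S'.det = t ^ 2 * S.det) :
    ∃ P : GL ι F, (P : Matrix ι ι F)ᵀ * S * (P : Matrix ι ι F) = S' := by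
  obtain ⟨i0⟩ := ‹Nonempty ι›
  have : Nonempty ι := ⟨i0⟩
  have hd0 : ∀ i, (Function.update (fun _ => (1 : F)) i0 t) i ≠ 0 := by
    intro i
    rcases eq_or_ne i i0 with h | h
    · subst h
      rwa [Function.update_self]
    · rw [Function.update_of_ne h]
      exact one_ne_zero
  let D := diagU _ hd0
  have hD : (D : Matrix ι ι F).det = t := by
    simp only [D]
    rw [coe_diagU, Matrix.det_diagonal, Finset.prod_update_of_mem (Finset.mem_univ i0)]
    simp
  have hDT : (D : Matrix ι ι F)ᵀ = D := by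
    simp only [D]
    rw [coe_diagU, Matrix.diagonal_transpose]
  obtain ⟨P, -, hP⟩ := exists_congr h2 ((D : Matrix ι ι F)ᵀ * S * (D : Matrix ι ι F)) S' (by
    rw [Matrix.transpose_mul, Matrix.transpose_mul, Matrix.transpose_transpose, hS, Matrix.mul_assoc]) (by
    rw [Matrix.det_mul, Matrix.det_mul, Matrix.det_transpose, hD]
    exact mul_ne_zero (mul_ne_zero ht hS0) ht) hS' (by
    rw [Matrix.det_mul, Matrix.det_mul, Matrix.det_transpose, hD, hdet]
    ring)
  refine ⟨D * P, ?_⟩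
  rw [Units.val_mul, Matrix.transpose_mul, ← hP]
  simp only [Matrix.mul_assoc]

/-- matrices as linear equivalences -/
theorem exists_linearEquiv (P : GL ι F) : ∃ e : (ι → F) ≃ₗ[F] (ι → F), ∀ v, e v = (P : Matrix ι ι F) *ᵥ v :=
  ⟨Cfsg.Agent.LieClassical.OrthFinite.glEquiv ι F P, fun _ => rfl⟩

theorem isNondeg_oddForm (h2 : (2 : F) ≠ 0) (m : ℕ) :
    Cfsg.Geo.IsNondegenerateQuadraticForm (oddForm m F : (Unit ⊕ (Fin m ⊕ Fin m) → F) → F) := by
  apply Cfsg.Agent.H883.Bridge.isNondegenerateQuadraticForm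
  intro x hx
  refine oddForm_nondeg m x ?_ hx
  have h := hx x
  rw [QuadraticMap.polar_self] at h
  have h1 : (2 : F) * oddForm m F x = 0 := by rw [← h, two_nsmul, two_mul]
  exact (mul_eq_zero.1 h1).resolve_left h2

omit [DecidableEq ι] in
/-- odd-dimensional non-degenerate quadratic spaces are similar to the standard one. -/
theorem exists_odd_equiv [Finite F] (h2 : (2 : F) ≠ 0) (hQ : Cfsg.Geo.IsNondegenerateQuadraticForm Q) {m : ℕ}
    (hcard : Fintype.card ι = 2 * m + 1) :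
    ∃ (e : (Unit ⊕ (Fin m ⊕ Fin m) → F) ≃ₗ[F] (ι → F)) (c : F), c ≠ 0 ∧ ∀ v, Q (e v) = c * Cfsg.quadFormOdd m F v := by
  let ε : ι ≃ Unit ⊕ (Fin m ⊕ Fin m) := Fintype.equivOfCardEq (by simp [hcard]; ring)
  let e0 : (Unit ⊕ (Fin m ⊕ Fin m) → F) ≃ₗ[F] (ι → F) := LinearEquiv.funCongrLeft F F ε
  let Q1 : (Unit ⊕ (Fin m ⊕ Fin m) → F) → F := fun v => Q (e0 v)
  have hpol : ∀ u v, QuadraticMap.polar Q1 u v = QuadraticMap.polar Q (e0 u) (e0 v) := by
    intro u v
    simp only [QuadraticMap.polar, Q1, map_add]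
  have hQ1 : Cfsg.Geo.IsNondegenerateQuadraticForm Q1 := by
    refine ⟨fun c v => by simp only [Q1, map_smul, hQ.smul], ?_, fun v hv => ?_⟩
    · refine ⟨fun x y v => ?_, fun c x v => ?_, fun v x y => ?_, fun c v x => ?_⟩
      · rw [hpol, hpol, hpol, map_add, hQ.polar_bilinear.add_left]
      · rw [hpol, hpol, map_smul, hQ.polar_bilinear.smul_left]
      · rw [hpol, hpol, hpol, map_add, hQ.polar_bilinear.add_right]
      · rw [hpol, hpol, map_smul, hQ.polar_bilinear.smul_right]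
    · have hv' : e0 v ≠ 0 := fun h => hv (e0.map_eq_zero_iff.1 h)
      obtain ⟨⟨w, hw⟩, ⟨w', hw'⟩⟩ := hQ.nondegenerate (e0 v) hv'
      refine ⟨⟨e0.symm w, ?_⟩, ⟨e0.symm w', ?_⟩⟩
      · rw [hpol, LinearEquiv.apply_symm_apply]; exact hw
      · rw [hpol, LinearEquiv.apply_symm_apply]; exact hw'
  have hodd := isNondeg_oddForm (F := F) h2 m
  let G1 := gram Q1
  let G2 := gram (oddForm m F : (Unit ⊕ (Fin m ⊕ Fin m) → F) → F)
  have hG1 : G1.det ≠ 0 := det_gram_ne_zero hQ1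
  have hG2 : G2.det ≠ 0 := det_gram_ne_zero hodd
  let c : F := G1.det / G2.det
  have hc : c ≠ 0 := div_ne_zero hG1 hG2
  obtain ⟨P, hP⟩ := exists_congr_sq h2 G1 (c • G2) (gram_transpose _) hG1 (by
    rw [Matrix.transpose_smul]; exact congrArg _ (gram_transpose _)) (t := c ^ m) (pow_ne_zero _ hc) (by
    rw [Matrix.det_smul]
    have h1 : Fintype.card (Unit ⊕ (Fin m ⊕ Fin m)) = 2 * m + 1 := by simp; ring
    rw [h1, pow_succ, pow_mul', mul_assoc]
    congr 1
    simp only [c]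
    field_simp)
  obtain ⟨e1, he1⟩ := exists_linearEquiv P
  refine ⟨e1.trans e0, c, hc, fun v => ?_⟩
  have h3 : 2 * Q1 (e1 v) = 2 * (c * oddForm m F v) := by
    rw [he1, two_mul_Q hQ1]
    have h4 : 2 * oddForm m F v = v ⬝ᵥ (G2 *ᵥ v) := two_mul_Q hodd v
    have h5 : ((P : Matrix _ _ F) *ᵥ v) ⬝ᵥ (gram Q1 *ᵥ ((P : Matrix _ _ F) *ᵥ v)) = v ⬝ᵥ ((c • G2) *ᵥ v) := by
      rw [← hP, ← Matrix.mulVec_mulVec, ← Matrix.mulVec_mulVec, Matrix.dotProduct_mulVec v, Matrix.vecMul_transpose]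
    rw [h5, Matrix.smul_mulVec, dotProduct_smul, ← h4, smul_eq_mul]
    ring
  have h6 := mul_left_cancel₀ h2 h3
  rw [coe_oddForm] at h6
  exact h6

end gen

section arith

/-- `∏_{i<2m} (q^(i+1) - 1)`. -/
theorem prod_even (q m : ℕ) : ∏ i ∈ Finset.range (2 * m), (q ^ (i + 1) - 1) =
    (∏ i ∈ Finset.range m, (q ^ (2 * (i + 1)) - 1)) * ∏ i ∈ Finset.range m, (q ^ (2 * i + 1) - 1) := by
  induction m with
  | zero => simp
  | succ m ih =>
    rw [show 2 * (m + 1) = 2 * m + 1 + 1 by ring, Finset.prod_range_succ, Finset.prod_range_succ, ih,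
      Finset.prod_range_succ, Finset.prod_range_succ]
    rw [show 2 * m + 1 + 1 = 2 * (m + 1) by ring]
    ring

theorem prod_odd (q m : ℕ) : ∏ i ∈ Finset.range (2 * m + 1), (q ^ (i + 1) - 1) =
    (∏ i ∈ Finset.range m, (q ^ (2 * (i + 1)) - 1)) * ∏ i ∈ Finset.range (m + 1), (q ^ (2 * i + 1) - 1) := by
  rw [Finset.prod_range_succ, prod_even, Finset.prod_range_succ (fun i => q ^ (2 * i + 1) - 1)]
  ring

theorem prod_even_succ (q m : ℕ) (hm : 1 ≤ m) : ∏ i ∈ Finset.range m, (q ^ (2 * (i + 1)) - 1) =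
    (q ^ m + 1) * ((q ^ m - 1) * ∏ i ∈ Finset.range (m - 1), (q ^ (2 * (i + 1)) - 1)) := by
  obtain ⟨k, rfl⟩ : ∃ k, m = k + 1 := ⟨m - 1, by omega⟩
  rw [Finset.prod_range_succ, Nat.add_sub_cancel]
  have h4 : q ^ (2 * (k + 1)) - 1 = (q ^ (k + 1) + 1) * (q ^ (k + 1) - 1) := by
    rw [mul_comm 2, pow_mul]
    have := Nat.sq_sub_sq (q ^ (k + 1)) 1
    rw [one_pow] at this
    exact this
  rw [h4]
  ring

theorem not_dvd_prod_odd {q r : ℕ} (hq : 0 < q) (hr : r.Prime) (hi : Even (orderOf (q : ZMod r))) (m : ℕ) :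
    ¬ r ∣ ∏ i ∈ Finset.range m, (q ^ (2 * i + 1) - 1) := by
  intro h
  rw [Prime.dvd_finsetProd_iff (Nat.prime_iff.1 hr)] at h
  obtain ⟨i, -, hi'⟩ := h
  have : Fact r.Prime := ⟨hr⟩
  have h1 := (Cfsg.Agent.H956.PrimeElt.dvd_pow_sub_one_iff hq _).1 hi'
  have := hi.two_dvd.trans h1
  omega

end arith

section main

variable {F : Type*} [Field F] [Fintype F] {n : ℕ} {Q : (Fin n → F) → F}

/-- **If `r` divides the index, `r ≠ p` odd and `ord_r(q)` even, then `n = 2 m` and `r ∣ q^m + ε`.** -/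
theorem even_case {q : ℕ} (hq : Fintype.card F = q) (h2 : (2 : F) ≠ 0) (hn : 1 ≤ n)
    (Q' : QuadraticForm F (Fin n → F)) (hQ' : ⇑Q' = Q) (hQ : Cfsg.Geo.IsNondegenerateQuadraticForm Q)
    (hnd : Nondeg Q')
    {r : ℕ} [Fact r.Prime] (hr : (r : F) ≠ 0) (hi : Even (orderOf (q : ZMod r)))
    (hdvd : r ∣ (Cfsg.Geo.quadSimilarityGroup Q).relIndex (Cfsg.Geo.specialLinear (Fin n) F)) :
    ∃ m : ℕ, n = 2 * m ∧ ((Cfsg.Agent.H955.IsPlus Q' ∧ (q : ZMod r) ^ m = -1) ∨
      (¬ Cfsg.Agent.H955.IsPlus Q' ∧ (q : ZMod r) ^ m = 1)) := by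
  classical
  have hrp : r.Prime := Fact.out
  have hq0 : 0 < q := by rw [← hq]; exact Fintype.card_pos
  have hrq : ¬ r ∣ q := Cfsg.Agent.H956.PrimeElt.not_dvd_card hq hr
  have hpow : ∀ N, ¬ r ∣ q ^ N := fun N h => hrq (hrp.dvd_of_dvd_pow h)
  set R := (Cfsg.Geo.quadSimilarityGroup Q).relIndex (Cfsg.Geo.specialLinear (Fin n) F) with hR
  -- the basic divisibility
  have hbase : Nat.card (Cfsg.isometryGroup F Q) * R ∣
      2 * (q ^ (n * (n - 1) / 2) * ∏ i ∈ Finset.range n, (q ^ (i + 1) - 1)) := by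
    obtain ⟨t, ht⟩ := card_iso_dvd h2 hQ
    have h1 := Cfsg.Agent.S0242.result hq n hn
    rw [prod_sub] at h1
    have h3 : R * Nat.card (Cfsg.Geo.quadSimilarityGroup Q ⊓ Cfsg.Geo.specialLinear (Fin n) F : Subgroup (GL (Fin n) F)) =
        Nat.card (Cfsg.Geo.specialLinear (Fin n) F) := by
      rw [hR, ← Subgroup.inf_relIndex_right, mul_comm, ← Subgroup.relIndex_bot_left, ← Subgroup.relIndex_bot_left]
      exact Subgroup.relIndex_mul_relIndex _ _ _ bot_le inf_le_right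
    rw [← h1, ← card_sl, ← h3]
    refine ⟨(q - 1) * t, ?_⟩
    calc 2 * ((q - 1) * (R * Nat.card (Cfsg.Geo.quadSimilarityGroup Q ⊓ Cfsg.Geo.specialLinear (Fin n) F : Subgroup (GL (Fin n) F))))
        = (q - 1) * (R * (2 * Nat.card (Cfsg.Geo.quadSimilarityGroup Q ⊓ Cfsg.Geo.specialLinear (Fin n) F : Subgroup (GL (Fin n) F)))) := by ring
      _ = _ := by rw [ht]; ring
  have hbase' : ∀ k, n = k → Nat.card (Cfsg.isometryGroup F Q) * R ∣
      2 * (q ^ (k * (k - 1) / 2) * ∏ i ∈ Finset.range k, (q ^ (i + 1) - 1)) := by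
    intro k hk
    rw [← hk]
    exact hbase
  clear hbase
  have hone : ∀ N, 1 ≤ N → 0 < q ^ N - 1 := by
    intro N hN
    have h1 : 1 < q := by rw [← hq]; exact Fintype.one_lt_card
    have := Nat.one_lt_pow (by omega : N ≠ 0) h1
    omega
  rcases Nat.even_or_odd' n with ⟨m, hm | hm⟩
  · refine ⟨m, hm, ?_⟩
    have hm1 : 1 ≤ m := by omega
    have hE : 0 < ∏ i ∈ Finset.range (m - 1), (q ^ (2 * (i + 1)) - 1) :=
      Finset.prod_pos fun i _ => hone _ (by omega)
    have hbase := hbase' _ hm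
    rw [prod_even, prod_even_succ q m hm1] at hbase
    by_cases hP : Cfsg.Agent.H955.IsPlus Q'
    · left
      refine ⟨hP, ?_⟩
      obtain ⟨e, he⟩ := Cfsg.Agent.H955.exists_plus_equiv m Q' hnd (by rw [Module.finrank_fin_fun, hm]) hP
      have hcard := Cfsg.Agent.S0287.result hq m hm1
      rw [card_iso_eq (Q := Q) e.symm one_ne_zero (fun v => by
        rw [one_mul, ← hQ', ← coe_plusForm, ← he, LinearEquiv.apply_symm_apply])] at hcard
      rw [hcard] at hbase
      have h5 : q ^ (m * (m - 1)) * R ∣ q ^ (2 * m * (2 * m - 1) / 2) * ((q ^ m + 1) *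
          ∏ i ∈ Finset.range m, (q ^ (2 * i + 1) - 1)) := by
        apply Nat.dvd_of_mul_dvd_mul_left (Nat.mul_pos (Nat.mul_pos (by norm_num : 0 < 2) (hone m hm1)) hE)
        convert hbase using 1 <;> ring
      have h6 := (Dvd.intro_left _ rfl : R ∣ q ^ (m * (m - 1)) * R).trans h5
      rcases (Nat.Prime.dvd_mul hrp).1 (hdvd.trans h6) with h | h
      · exact absurd h (hpow _)
      rcases (Nat.Prime.dvd_mul hrp).1 h with h | h
      · rw [← ZMod.natCast_eq_zero_iff] at h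
        push_cast at h
        linear_combination h
      · exact absurd h (not_dvd_prod_odd hq0 hrp hi m)
    · right
      refine ⟨hP, ?_⟩
      obtain ⟨a, b, hab⟩ := Cfsg.Agent.H955.exists_aniso_coeff F
      obtain ⟨e, he⟩ := Cfsg.Agent.H955.exists_minus_equiv hab (m - 1) Q' hnd (by
        rw [Module.finrank_fin_fun, hm]; omega) hP
      have hcard := Cfsg.Agent.S0288.result hq m hm1 a b hab
      rw [card_iso_eq (Q := Q) e.symm one_ne_zero (fun v => by
        rw [one_mul, ← hQ', ← coe_minusForm, ← he, LinearEquiv.apply_symm_apply])] at hcard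
      rw [hcard] at hbase
      have h5 : q ^ (m * (m - 1)) * R ∣ q ^ (2 * m * (2 * m - 1) / 2) * ((q ^ m - 1) *
          ∏ i ∈ Finset.range m, (q ^ (2 * i + 1) - 1)) := by
        have hpos : 0 < q ^ m + 1 := Nat.succ_pos (q ^ m)
        apply Nat.dvd_of_mul_dvd_mul_left (Nat.mul_pos (Nat.mul_pos (by norm_num : 0 < 2) hpos) hE)
        convert hbase using 1 <;> ring
      have h6 := (Dvd.intro_left _ rfl : R ∣ q ^ (m * (m - 1)) * R).trans h5
      rcases (Nat.Prime.dvd_mul hrp).1 (hdvd.trans h6) with h | h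
      · exact absurd h (hpow _)
      rcases (Nat.Prime.dvd_mul hrp).1 h with h | h
      · rw [← ZMod.natCast_eq_zero_iff, Nat.cast_sub (Nat.one_le_pow _ _ hq0)] at h
        push_cast at h
        linear_combination h
      · exact absurd h (not_dvd_prod_odd hq0 hrp hi m)
  · exfalso
    obtain ⟨e, c, hc, he⟩ := exists_odd_equiv (Q := Q) (m := m) h2 hQ (by rw [Fintype.card_fin, hm])
    have hcard := Cfsg.Agent.S0286.result hq (Cfsg.Agent.H956.FieldArith.odd_of_two_ne_zero hq h2) m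
    rw [card_iso_eq (Q := Q) e hc he] at hcard
    have hbase := hbase' _ hm
    rw [prod_odd, hcard] at hbase
    have hE : 0 < ∏ i ∈ Finset.range m, (q ^ (2 * (i + 1)) - 1) :=
      Finset.prod_pos fun i _ => hone _ (by omega)
    have h5 : q ^ (m ^ 2) * R ∣ q ^ ((2 * m + 1) * (2 * m + 1 - 1) / 2) *
        ∏ i ∈ Finset.range (m + 1), (q ^ (2 * i + 1) - 1) := by
      apply Nat.dvd_of_mul_dvd_mul_left (Nat.mul_pos (by norm_num : 0 < 2) hE)
      convert hbase using 1 <;> ring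
    have h6 := (Dvd.intro_left _ rfl : R ∣ q ^ (m ^ 2) * R).trans h5
    rcases (Nat.Prime.dvd_mul hrp).1 (hdvd.trans h6) with h | h
    · exact absurd h (hpow _)
    · exact absurd h (not_dvd_prod_odd hq0 hrp hi (m + 1))

end main

end Cfsg.Agent.H956.OrthIndex
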