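import Mathlib

/-!
# `p`-singular matrices modulo scalars

`pow_ne_smul` : if `f(M) ≠ 0` and `f(M) ^ k = 0` for a polynomial `f`, then no power `M ^ o` with `p ∤ o` is a
nonzero scalar (`p` the characteristic); so `p` divides the order of the image of `M` modulo scalars.
-/

set_option autoImplicit false

namespace Cfsg.Agent.H956.PSing

open Matrix Polynomial

variable {F : Type*} [Field F] {ι : Type*} [Fintype ι] [DecidableEq ι]

/-- a matrix that is not semisimple has no scalar power with exponent prime to `p` -/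
theorem pow_ne_smul {p : ℕ} [CharP F p] {M : Matrix ι ι F} {f : F[X]} {k o : ℕ} (h0 : aeval M f ≠ 0)
    (hk : aeval M f ^ k = 0) (hp : ¬ p ∣ o) {c : F} (hc : c ≠ 0) : M ^ o ≠ c • (1 : Matrix ι ι F) := by
  intro h
  apply h0
  have h1 : (X ^ o - C c : F[X]).Separable := separable_X_pow_sub_C' p o c hp hc
  have h2 : minpoly F M ∣ X ^ o - C c := by
    rw [minpoly.dvd_iff, map_sub, map_pow, aeval_X, aeval_C, h, Algebra.algebraMap_eq_smul_one, sub_self]
  have h3 : Squarefree (minpoly F M) := h1.squarefree.squarefree_of_dvd h2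
  have hk0 : k ≠ 0 := by
    rintro rfl
    rw [pow_zero] at hk
    have h4 : (aeval M f : Matrix ι ι F) = aeval M f * 1 := (mul_one _).symm
    rw [hk, mul_zero] at h4
    exact h0 h4
  have h4 : minpoly F M ∣ f ^ k := by
    rw [minpoly.dvd_iff, map_pow, hk]
  exact (minpoly.dvd_iff).1 ((h3.dvd_pow_iff_dvd hk0).1 h4)

/-- an element of a group whose image modulo scalars has order prime to `p` -/
theorem dvd_of_poly {p : ℕ} [CharP F p] {G H : Type*} [Group G] [Group H] (g : G →* Matrix ι ι F) (π : G →* H)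
    (hπ : ∀ x : G, π x = 1 → ∃ c : F, c ≠ 0 ∧ g x = c • (1 : Matrix ι ι F)) (x : G) {f : F[X]} {k : ℕ}
    (h0 : aeval (g x) f ≠ 0) (hk : aeval (g x) f ^ k = 0) : p ∣ orderOf (π x) := by
  by_contra hp
  obtain ⟨c, hc, h⟩ := hπ (x ^ orderOf (π x)) (by rw [map_pow, pow_orderOf_eq_one])
  rw [map_pow] at h
  exact pow_ne_smul h0 hk hp hc h

/-- the same with the coefficients of a cubic polynomial -/
theorem dvd_of_cubic {p : ℕ} [CharP F p] {G H : Type*} [Group G] [Group H] (g : G →* Matrix ι ι F) (π : G →* H)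
    (hπ : ∀ x : G, π x = 1 → ∃ c : F, c ≠ 0 ∧ g x = c • (1 : Matrix ι ι F)) (x : G) (a b c d : F)
    (h0 : a • (g x * g x * g x) + b • (g x * g x) + c • g x + d • (1 : Matrix ι ι F) ≠ 0)
    (hk : (a • (g x * g x * g x) + b • (g x * g x) + c • g x + d • (1 : Matrix ι ι F)) *
      (a • (g x * g x * g x) + b • (g x * g x) + c • g x + d • (1 : Matrix ι ι F)) *
      ((a • (g x * g x * g x) + b • (g x * g x) + c • g x + d • (1 : Matrix ι ι F)) *
      (a • (g x * g x * g x) + b • (g x * g x) + c • g x + d • (1 : Matrix ι ι F))) = 0) :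
    p ∣ orderOf (π x) := by
  have h1 : aeval (g x) (C a * X ^ 3 + C b * X ^ 2 + C c * X + C d : F[X]) =
      a • (g x * g x * g x) + b • (g x * g x) + c • g x + d • (1 : Matrix ι ι F) := by
    simp only [map_add, map_mul, aeval_X, aeval_C, Algebra.algebraMap_eq_smul_one, Matrix.smul_mul,
      one_mul, pow_succ, pow_zero]
  refine dvd_of_poly g π hπ x (f := C a * X ^ 3 + C b * X ^ 2 + C c * X + C d) (k := 4) ?_ ?_
  · rw [h1]; exact h0
  · rw [h1, show (4 : ℕ) = 2 * 2 by norm_num, pow_mul, pow_two, pow_two]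
    exact hk

end Cfsg.Agent.H956.PSing
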