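import Cfsg.Agent.H504.ZerosLie
import Cfsg.Agent.H956.PSing
import Cfsg.Agent.LieClassical.SympCenter
import Cfsg.Agent.S0270

/-!
# Families of `p`-singular elements of `PSp_2m(F)`

`big_of_fam` : nine elements of `Sp_2m(F)` with non-scalar-similar matrices and `p`-singular images.
`big_of_list` : the same with decidable data.
-/

set_option autoImplicit false

namespace Cfsg.Agent.H956.PSpFam

open Matrix Polynomial Cfsg.Agent.LieClassical Cfsg.Agent.H504.Zeros

variable {F : Type*} [Field F] {m : ℕ}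

/-- the matrix of an element of `Sp` -/
def cs : symplecticGroup (Fin m) F →* Matrix (Fin m ⊕ Fin m) (Fin m ⊕ Fin m) F := (symplecticGroup (Fin m) F).subtype

theorem cs_apply (x : symplecticGroup (Fin m) F) : cs x = x.1 := rfl

theorem cs_injective : Function.Injective (cs : symplecticGroup (Fin m) F →* _) := Subtype.val_injective

/-- the projection `Sp → PSp` -/
def ps : symplecticGroup (Fin m) F →* Cfsg.PSp m F := QuotientGroup.mk' _

theorem ps_surjective : Function.Surjective (ps : symplecticGroup (Fin m) F →* Cfsg.PSp m F) :=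
  QuotientGroup.mk'_surjective _

theorem ps_eq_one_iff (x : symplecticGroup (Fin m) F) :
    ps x = 1 ↔ x ∈ Subgroup.center (symplecticGroup (Fin m) F) :=
  QuotientGroup.eq_one_iff x

/-- scalars in `Sp` -/
theorem scalar_of_ps (hm : 1 ≤ m) (x : symplecticGroup (Fin m) F) (h : ps x = 1) :
    ∃ c : F, c * c = 1 ∧ cs x = c • (1 : Matrix (Fin m ⊕ Fin m) (Fin m ⊕ Fin m) F) := by
  rw [ps_eq_one_iff, SympCenter.mem_center_iff] at h
  obtain ⟨c, hc⟩ := h
  refine ⟨c, ?_, hc⟩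
  apply SympCenter.sq_eq_one_of_smul_mem hm
  rw [← hc]
  exact x.2

theorem scalar_of_ps' (hm : 1 ≤ m) (x : symplecticGroup (Fin m) F) (h : ps x = 1) :
    ∃ c : F, c ≠ 0 ∧ cs x = c • (1 : Matrix (Fin m ⊕ Fin m) (Fin m ⊕ Fin m) F) := by
  obtain ⟨c, hc, h1⟩ := scalar_of_ps hm x h
  refine ⟨c, ?_, h1⟩
  rintro rfl
  rw [mul_zero] at hc
  exact zero_ne_one hc

/-- similarity up to sign -/
def Sim (M N : Matrix (Fin m ⊕ Fin m) (Fin m ⊕ Fin m) F) : Prop :=
  ∃ (P Q : Matrix (Fin m ⊕ Fin m) (Fin m ⊕ Fin m) F) (c : F), P * Q = 1 ∧ Q * P = 1 ∧ c * c = 1 ∧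
    N = c • (P * M * Q)

theorem sim_of_isConj (hm : 1 ≤ m) {x y : symplecticGroup (Fin m) F} (h : IsConj (ps x) (ps y)) :
    Sim (cs x) (cs y) := by
  obtain ⟨c, h5⟩ := isConj_iff.1 h
  obtain ⟨g, rfl⟩ := ps_surjective c
  have h6 : ps ((g * x * g⁻¹)⁻¹ * y) = 1 := by
    rw [map_mul, map_inv, map_mul, map_mul, map_inv, h5]
    simp
  obtain ⟨c, hc, h7⟩ := scalar_of_ps hm _ h6
  refine ⟨cs g, cs g⁻¹, c, ?_, ?_, hc, ?_⟩
  · rw [← map_mul, mul_inv_cancel, map_one]
  · rw [← map_mul, inv_mul_cancel, map_one]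
  · have h8 : cs y = cs (g * x * g⁻¹) * cs ((g * x * g⁻¹)⁻¹ * y) := by
      rw [← map_mul cs, mul_inv_cancel_left]
    rw [h8, h7, Matrix.mul_smul, mul_one, map_mul, map_mul]

theorem Sim.trace {M N : Matrix (Fin m ⊕ Fin m) (Fin m ⊕ Fin m) F} (h : Sim M N) :
    ∃ c : F, c * c = 1 ∧ N.trace = c * M.trace := by
  obtain ⟨P, Q, c, h1, h2, hc, rfl⟩ := h
  exact ⟨c, hc, by rw [Matrix.trace_smul, Matrix.trace_mul_cycle, h2, one_mul, smul_eq_mul]⟩

theorem Sim.trace_sq {M N : Matrix (Fin m ⊕ Fin m) (Fin m ⊕ Fin m) F} (h : Sim M N) :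
    N.trace ^ 2 = M.trace ^ 2 := by
  obtain ⟨c, hc, h1⟩ := h.trace
  rw [h1]
  linear_combination (M.trace ^ 2) * hc

theorem Sim.trace_mul_self {M N : Matrix (Fin m ⊕ Fin m) (Fin m ⊕ Fin m) F} (h : Sim M N) :
    (N * N).trace = (M * M).trace := by
  obtain ⟨P, Q, c, h1, h2, hc, rfl⟩ := h
  have h3 : P * M * Q * (P * M * Q) = P * (M * M) * Q := by
    calc P * M * Q * (P * M * Q) = P * M * (Q * P) * M * Q := by simp only [mul_assoc]
      _ = _ := by rw [h2, mul_one]; simp only [mul_assoc]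
  rw [smul_mul_smul_comm, hc, one_smul, h3, Matrix.trace_mul_cycle, h2, one_mul]

/-- similarity up to sign through an algebra homomorphism -/
theorem Sim.exists_hom {M N : Matrix (Fin m ⊕ Fin m) (Fin m ⊕ Fin m) F} (h : Sim M N) :
    ∃ φ : Matrix (Fin m ⊕ Fin m) (Fin m ⊕ Fin m) F →ₐ[F] Matrix (Fin m ⊕ Fin m) (Fin m ⊕ Fin m) F,
      Function.Injective φ ∧ (N = φ M ∨ N = -φ M) := by
  obtain ⟨P, Q, c, h1, h2, hc, rfl⟩ := h
  let φ : Matrix (Fin m ⊕ Fin m) (Fin m ⊕ Fin m) F →ₐ[F] Matrix (Fin m ⊕ Fin m) (Fin m ⊕ Fin m) F :=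
    { toFun := fun X => P * X * Q
      map_one' := by rw [mul_one, h1]
      map_mul' := fun X Y => by
        calc P * (X * Y) * Q = P * X * (1 * Y) * Q := by rw [one_mul]; simp only [mul_assoc]
          _ = P * X * Q * (P * Y * Q) := by rw [← h2]; simp only [mul_assoc]
      map_zero' := by rw [mul_zero, zero_mul]
      map_add' := fun X Y => by rw [mul_add, add_mul]
      commutes' := fun r => by
        rw [Algebra.algebraMap_eq_smul_one, Matrix.mul_smul, mul_one, Matrix.smul_mul, h1] }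
  refine ⟨φ, ?_, ?_⟩
  · intro X Y hXY
    have h3 : P * X * Q = P * Y * Q := hXY
    calc X = (Q * P) * X * (Q * P) := by rw [h2, one_mul, mul_one]
      _ = Q * (P * X * Q) * P := by simp only [mul_assoc]
      _ = Q * (P * Y * Q) * P := by rw [h3]
      _ = (Q * P) * Y * (Q * P) := by simp only [mul_assoc]
      _ = Y := by rw [h2, one_mul, mul_one]
  · rcases mul_self_eq_one_iff.1 hc with rfl | rfl
    · exact Or.inl (one_smul _ _)
    · exact Or.inr (by rw [neg_smul, one_smul]; rfl)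

variable {p : ℕ}

/-- **families of `p`-singular elements** -/
theorem big_of_fam {F : Type} [Field F] [Fintype F] [CharP F p] {m : ℕ} (hm : 2 ≤ m)
    (h2 : m = 2 → 3 ≤ Fintype.card F) {ι : Type} [Fintype ι] (x : ι → symplecticGroup (Fin m) F)
    (hx : ∀ i j, Sim (cs (x i)) (cs (x j)) → i = j) (hs : ∀ i, p ∣ orderOf (ps (x i)))
    (h9 : 9 ≤ Fintype.card ι) : Big (Cfsg.PSp m F) := by
  classical
  have hp : p.Prime := by
    obtain ⟨n, h, -⟩ := FiniteField.card F p
    exact h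
  have : Finite (symplecticGroup (Fin m) F) := Subtype.finite
  have hsimp : IsSimpleGroup (Cfsg.PSp m F) := Cfsg.Agent.S0270.result m hm h2
  have hL : IsLieTypeChar p (Cfsg.PSp m F) :=
    Or.inr (Or.inl ⟨F, inferInstance, inferInstance, inferInstance, m, hm, h2, ⟨MulEquiv.refl _⟩⟩)
  have hinj : ∀ i j, IsConj (ps (x i)) (ps (x j)) → i = j := fun i j h => hx i j (sim_of_isConj (by omega) h)
  refine big_of_lie hp hL (Finset.univ.image fun i => ps (x i)) ?_ ?_ ?_
  · intro g hg h hh hc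
    obtain ⟨i, -, rfl⟩ := Finset.mem_image.1 hg
    obtain ⟨j, -, rfl⟩ := Finset.mem_image.1 hh
    rw [hinj i j hc]
  · intro g hg
    obtain ⟨i, -, rfl⟩ := Finset.mem_image.1 hg
    exact hs i
  · rw [Finset.card_image_of_injective]
    · exact h9
    · intro i j hij
      have h4 : ps (x i) = ps (x j) := hij
      exact hinj i j (by rw [h4])

/-- the polynomial `a M³ + b M² + c M + d` -/
def cub {K : Type} [Field K] (M : Matrix (Fin m ⊕ Fin m) (Fin m ⊕ Fin m) K) (t : K × K × K × K) :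
    Matrix (Fin m ⊕ Fin m) (Fin m ⊕ Fin m) K :=
  t.1 • (M * M * M) + t.2.1 • (M * M) + t.2.2.1 • M + t.2.2.2 • (1 : Matrix (Fin m ⊕ Fin m) (Fin m ⊕ Fin m) K)

/-- symplectic and not semisimple -/
def good {K : Type} [Field K] [DecidableEq K]
    (x : Matrix (Fin m ⊕ Fin m) (Fin m ⊕ Fin m) K × (K × K × K × K)) : Bool :=
  decide (x.1 * J (Fin m) K * x.1ᵀ = J (Fin m) K) && decide (cub x.1 x.2 ≠ 0) &&
    decide (cub x.1 x.2 * cub x.1 x.2 * (cub x.1 x.2 * cub x.1 x.2) = 0)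

/-- **lists of `p`-singular elements** -/
theorem big_of_list {K : Type} [Field K] [Fintype K] [DecidableEq K] [CharP K p] {m : ℕ} (hm : 2 ≤ m)
    (h2 : m = 2 → 3 ≤ Fintype.card K) {α : Type} (f : Matrix (Fin m ⊕ Fin m) (Fin m ⊕ Fin m) K → α)
    (hf : ∀ M N, Sim M N → f N = f M)
    (l : List (Matrix (Fin m ⊕ Fin m) (Fin m ⊕ Fin m) K × (K × K × K × K)))
    (hl : ∀ x ∈ l, good x = true) (hnd : (l.map fun x => f x.1).Nodup) (h9 : 9 ≤ l.length) :
    Big (Cfsg.PSp m K) := by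
  have hg : ∀ i : Fin l.length, ((l.get i).1 * J (Fin m) K * (l.get i).1ᵀ = J (Fin m) K ∧
      cub (l.get i).1 (l.get i).2 ≠ 0) ∧ cub (l.get i).1 (l.get i).2 * cub (l.get i).1 (l.get i).2 *
        (cub (l.get i).1 (l.get i).2 * cub (l.get i).1 (l.get i).2) = 0 := by
    intro i
    have h := hl (l.get i) (List.get_mem l i)
    rwa [good, Bool.and_eq_true, Bool.and_eq_true, decide_eq_true_eq, decide_eq_true_eq,
      decide_eq_true_eq] at h
  refine big_of_fam (p := p) hm h2 (ι := Fin l.length)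
    (fun i => ⟨(l.get i).1, SymplecticGroup.mem_iff.2 (hg i).1.1⟩) ?_ ?_ (by rw [Fintype.card_fin]; exact h9)
  · intro i j hij
    have h4 : f (l.get i).1 = f (l.get j).1 := (hf _ _ hij).symm
    have h5 := List.nodup_iff_injective_get.1 hnd
    have h6 : (l.map fun x => f x.1).get (i.cast (by simp)) = (l.map fun x => f x.1).get (j.cast (by simp)) := by
      simpa using h4
    have h7 := h5 h6
    exact Fin.ext (by simpa [Fin.ext_iff] using h7)
  · intro i
    exact PSing.dvd_of_cubic cs ps (scalar_of_ps' (by omega)) _ _ _ _ _ (hg i).1.2 (hg i).2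

end Cfsg.Agent.H956.PSpFam
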