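import Cfsg.Agent.H956.PSpFam
import Cfsg.Agent.H93.PspCharpoly
import Cfsg.Agent.H674.ExplicitCases
import Cfsg.Agent.S0822

/-!
# Zeros of characters: `PSp_4(q)`, `q ≥ 3` (S4895)
-/

set_option autoImplicit false
set_option maxRecDepth 20000

namespace Cfsg.Agent.H956.ZerosPSp4

open Matrix Cfsg.Agent.LieClassical Cfsg.Agent.H504.Zeros Cfsg.Agent.H956.PSpFam

section Inv

variable {K : Type} [Field K] [DecidableEq K] {m : ℕ}

/-- `±M` is unipotent with `(M ∓ 1) ^ 2 = 0` -/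
def b1 (M : Matrix (Fin m ⊕ Fin m) (Fin m ⊕ Fin m) K) : Bool :=
  decide ((M - 1) * (M - 1) = 0 ∨ (M + 1) * (M + 1) = 0)

/-- `(M ^ 2 - 1) (M ∓ 1) = 0` -/
def b2 (M : Matrix (Fin m ⊕ Fin m) (Fin m ⊕ Fin m) K) : Bool :=
  decide ((M * M - 1) * (M - 1) = 0 ∨ (M * M - 1) * (M + 1) = 0)

theorem b1_sim {M N : Matrix (Fin m ⊕ Fin m) (Fin m ⊕ Fin m) K} (h : Sim M N) : b1 N = b1 M := by
  obtain ⟨φ, hφ, h1⟩ := h.exists_hom
  have e1 : (M - 1) * (M - 1) = 0 ↔ (φ M - 1) * (φ M - 1) = 0 := by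
    rw [← map_eq_zero_iff φ hφ]; simp only [map_mul, map_sub, map_one]
  have e2 : (M + 1) * (M + 1) = 0 ↔ (φ M + 1) * (φ M + 1) = 0 := by
    rw [← map_eq_zero_iff φ hφ]; simp only [map_mul, map_add, map_one]
  rw [b1, b1, decide_eq_decide, e1, e2]
  rcases h1 with h1 | h1
  · rw [h1]
  · rw [h1, show (-φ M + 1) * (-φ M + 1) = (φ M - 1) * (φ M - 1) by noncomm_ring,
      show (-φ M - 1) * (-φ M - 1) = (φ M + 1) * (φ M + 1) by noncomm_ring, or_comm]

theorem b2_sim {M N : Matrix (Fin m ⊕ Fin m) (Fin m ⊕ Fin m) K} (h : Sim M N) : b2 N = b2 M := by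
  obtain ⟨φ, hφ, h1⟩ := h.exists_hom
  have e1 : (M * M - 1) * (M - 1) = 0 ↔ (φ M * φ M - 1) * (φ M - 1) = 0 := by
    rw [← map_eq_zero_iff φ hφ]; simp only [map_mul, map_sub, map_one]
  have e2 : (M * M - 1) * (M + 1) = 0 ↔ (φ M * φ M - 1) * (φ M + 1) = 0 := by
    rw [← map_eq_zero_iff φ hφ]; simp only [map_mul, map_add, map_sub, map_one]
  rw [b2, b2, decide_eq_decide, e1, e2]
  rcases h1 with h1 | h1
  · rw [h1]
  · rw [h1, show (-φ M * -φ M - 1) * (-φ M + 1) = -((φ M * φ M - 1) * (φ M - 1)) by noncomm_ring,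
      show (-φ M * -φ M - 1) * (-φ M - 1) = -((φ M * φ M - 1) * (φ M + 1)) by noncomm_ring, neg_eq_zero,
      neg_eq_zero, or_comm]

/-- invariants -/
def inv (M : Matrix (Fin m ⊕ Fin m) (Fin m ⊕ Fin m) K) : K × K × Bool × Bool :=
  (M.trace * M.trace, (M * M).trace, b1 M, b2 M)

theorem inv_sim (M N : Matrix (Fin m ⊕ Fin m) (Fin m ⊕ Fin m) K) (h : Sim M N) : inv N = inv M := by
  have h1 := h.trace_sq
  rw [pow_two, pow_two] at h1
  rw [inv, inv, b1_sim h, b2_sim h, h.trace_mul_self, h1]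

end Inv

section Odd

variable (K : Type) [Field K] [DecidableEq K]

/-- the direct sum of the companion matrices of `(X - 1) ^ 2` and `X ^ 2 - s X + 1` -/
def g (s : K) : Matrix (Fin 2 ⊕ Fin 2) (Fin 2 ⊕ Fin 2) K × (K × K × K × K) :=
  (fromBlocks 0 (-1) 1 !![2, 0; 0, s],
    if s = 2 then (0, 0, 1, -1) else if s = -2 then (0, 1, 0, -1) else (1, -(s + 1), s + 1, -1))

/-- a regular unipotent element -/
def R : Matrix (Fin 2 ⊕ Fin 2) (Fin 2 ⊕ Fin 2) K × (K × K × K × K) :=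
  (fromBlocks !![1, 1; 0, 1] !![0, 1; 0, 1] 0 !![1, 0; -1, 1], (0, 0, 1, -1))

/-- the direct sum of a unipotent element and `-1` -/
def D : Matrix (Fin 2 ⊕ Fin 2) (Fin 2 ⊕ Fin 2) K × (K × K × K × K) :=
  (fromBlocks !![0, 0; 0, -1] !![-1, 0; 0, 0] !![1, 0; 0, 0] !![2, 0; 0, -1], (0, 1, 0, -1))

/-- an element with minimal polynomial `(X ^ 2 - t X + 1) ^ 2` if `1 + 4 = 0` -/
def T (t : K) : Matrix (Fin 2 ⊕ Fin 2) (Fin 2 ⊕ Fin 2) K × (K × K × K × K) :=
  (fromBlocks 0 (-1) 1 !![t + 1, 2; 2, t - 1], (0, 1, -t, 1))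

end Odd

instance fact5 : Fact (Nat.Prime 5) := ⟨by norm_num⟩
instance fact7 : Fact (Nat.Prime 7) := ⟨by norm_num⟩

def l5 : List (Matrix (Fin 2 ⊕ Fin 2) (Fin 2 ⊕ Fin 2) (ZMod 5) × (ZMod 5 × ZMod 5 × ZMod 5 × ZMod 5)) :=
  [g (ZMod 5) 0, g (ZMod 5) 1, g (ZMod 5) 2, g (ZMod 5) 3, g (ZMod 5) 4, R (ZMod 5), D (ZMod 5),
    T (ZMod 5) 0, T (ZMod 5) 1]

def l7 : List (Matrix (Fin 2 ⊕ Fin 2) (Fin 2 ⊕ Fin 2) (ZMod 7) × (ZMod 7 × ZMod 7 × ZMod 7 × ZMod 7)) :=
  [g (ZMod 7) 0, g (ZMod 7) 1, g (ZMod 7) 2, g (ZMod 7) 3, g (ZMod 7) 4, g (ZMod 7) 5, g (ZMod 7) 6,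
    R (ZMod 7), D (ZMod 7)]

theorem good5 : l5.all good = true := by decide +kernel
theorem good7 : l7.all good = true := by decide +kernel
theorem nodup5 : (l5.map fun x => inv x.1).Nodup := by decide +kernel
theorem nodup7 : (l7.map fun x => inv x.1).Nodup := by decide +kernel

/-- `q = 5` -/
theorem big_five {F : Type} [Field F] [Fintype F] (hF : Fintype.card F = 5) : Big (Cfsg.PSp 2 F) := by
  refine Big.of_equiv (FieldTransfer.pspCongr 2 (ZMod.ringEquivOfPrime F (by norm_num) hF).symm) ?_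
  exact big_of_list (p := 5) le_rfl (fun _ => by rw [ZMod.card]; norm_num) inv inv_sim l5
    (fun M hM => List.all_eq_true.1 good5 M hM) nodup5 (by decide)

/-- `q = 7` -/
theorem big_seven {F : Type} [Field F] [Fintype F] (hF : Fintype.card F = 7) : Big (Cfsg.PSp 2 F) := by
  refine Big.of_equiv (FieldTransfer.pspCongr 2 (ZMod.ringEquivOfPrime F (by norm_num) hF).symm) ?_
  exact big_of_list (p := 7) le_rfl (fun _ => by rw [ZMod.card]; norm_num) inv inv_sim l7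
    (fun M hM => List.all_eq_true.1 good7 M hM) nodup7 (by decide)

/-! ### `q = 4` -/

section Four

open Cfsg.Agent.H674.ExplicitCases

/-- rank at most one -/
theorem vecMulVec_of_minors {K ι : Type*} [Field K] {X : Matrix ι ι K}
    (h : ∀ i j k l, X i j * X k l = X i l * X k j) : ∃ a b : ι → K, X = vecMulVec a b := by
  by_cases h0 : X = 0
  · refine ⟨0, 0, ?_⟩
    rw [h0]
    ext i j
    simp [vecMulVec_apply]
  · obtain ⟨i0, j0, hij⟩ : ∃ i j, X i j ≠ 0 := by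
      by_contra hcon
      push Not at hcon
      exact h0 (Matrix.ext hcon)
    refine ⟨fun i => X i j0, fun j => X i0 j / X i0 j0, ?_⟩
    ext i j
    rw [vecMulVec_apply, mul_div_assoc', eq_div_iff hij]
    exact h _ _ _ _

/-- `M - 1` has rank at most one -/
def rk1 {K : Type} [Field K] [DecidableEq K] (M : Matrix (Fin 2 ⊕ Fin 2) (Fin 2 ⊕ Fin 2) K) : Bool :=
  decide (∀ i j k l, (M - 1) i j * (M - 1) k l = (M - 1) i l * (M - 1) k j)

/-- invariants -/
def inv4 {K : Type} [Field K] [DecidableEq K] (cl : List K) (M : Matrix (Fin 2 ⊕ Fin 2) (Fin 2 ⊕ Fin 2) K) :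
    K × List Bool × Bool × Bool :=
  (M.trace, cl.map (fun c => decide (M * M * (M * M) + c • (M * M) + 1 = 0)), decide (M * M = 1), rk1 M)

section Inv4

variable {K : Type} [Field K] [DecidableEq K]

theorem rk1_aux {M P Q : Matrix (Fin 2 ⊕ Fin 2) (Fin 2 ⊕ Fin 2) K} (h1 : P * Q = 1)
    (h : rk1 M = true) : rk1 (P * M * Q) = true := by
  rw [rk1, decide_eq_true_eq] at h ⊢
  obtain ⟨a, b, hab⟩ := vecMulVec_of_minors h
  have h2 : P * M * Q - 1 = vecMulVec (P *ᵥ a) (b ᵥ* Q) := by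
    have h3 : P * M * Q - 1 = P * (M - 1) * Q := by
      rw [mul_sub, sub_mul, mul_one, h1]
    rw [h3, hab, mul_vecMulVec, vecMulVec_mul]
  intro i j k l
  rw [h2]
  simp only [vecMulVec_apply]
  ring

theorem inv4_sim (hK : ∀ c : K, c * c = 1 → c = 1) (cl : List K)
    (M N : Matrix (Fin 2 ⊕ Fin 2) (Fin 2 ⊕ Fin 2) K) (h : Sim M N) : inv4 cl N = inv4 cl M := by
  have ht : N.trace = M.trace := by
    obtain ⟨c, hc, h1⟩ := h.trace
    rw [h1, hK c hc, one_mul]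
  have h0 : rk1 N = rk1 M := by
    obtain ⟨P, Q, c, h1, h2, hc, rfl⟩ := h
    rw [hK c hc, one_smul, Bool.eq_iff_iff]
    constructor
    · intro h3
      have h4 := rk1_aux (P := Q) (Q := P) h2 h3
      rwa [show Q * (P * M * Q) * P = M by
        calc Q * (P * M * Q) * P = (Q * P) * M * (Q * P) := by simp only [mul_assoc]
          _ = M := by rw [h2, one_mul, mul_one]] at h4
    · exact rk1_aux h1
  obtain ⟨φ, hφ, h1⟩ := h.exists_hom
  have h2 : N = φ M := by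
    rcases h1 with h1 | h1
    · exact h1
    · have h3 : (-1 : K) = 1 := hK _ (by ring)
      rw [h1, ← one_smul K (-φ M), smul_neg, ← neg_smul, h3, one_smul]
  have e1 : ∀ c : K, N * N * (N * N) + c • (N * N) + 1 = 0 ↔ M * M * (M * M) + c • (M * M) + 1 = 0 := by
    intro c
    have h3 : N * N * (N * N) + c • (N * N) + 1 = φ (M * M * (M * M) + c • (M * M) + 1) := by
      rw [h2, map_add, map_add, map_smul, map_mul, map_mul, map_one]
    rw [h3]
    exact map_eq_zero_iff φ hφ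
  have e2 : N * N = 1 ↔ M * M = 1 := by
    have h3 : N * N = φ (M * M) := by rw [h2, map_mul]
    have h4 : (1 : Matrix (Fin 2 ⊕ Fin 2) (Fin 2 ⊕ Fin 2) K) = φ 1 := (map_one φ).symm
    rw [h3]
    conv_lhs => rw [h4]
    exact hφ.eq_iff
  rw [inv4, inv4, h0, ht, decide_eq_decide.2 e2]
  congr 2
  exact List.map_congr_left fun c _ => decide_eq_decide.2 (e1 c)

end Inv4

theorem sq_eq (c : F4) (h : c * c = 1) : c = 1 := by
  revert c; decide +kernel

/-- the elements of `Sp_4(4)` -/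
def l4 : List (Matrix (Fin 2 ⊕ Fin 2) (Fin 2 ⊕ Fin 2) F4 × (F4 × F4 × F4 × F4)) :=
  [g F4 ⟨0, 0⟩, g F4 ⟨1, 0⟩, g F4 ⟨0, 1⟩, g F4 ⟨1, 1⟩,
    (fromBlocks !![0, 0; 0, 1] !![1, 0; 0, 0] !![1, 0; 0, 0] !![0, 0; 0, 1], (0, 0, 1, 1)),
    (fromBlocks 0 (-1) 1 !![1, 1; 1, 1], (0, 0, 1, 1)),
    (fromBlocks 0 (-1) 1 !![⟨0, 0⟩, 1; 1, ⟨0, 0⟩], (0, 1, ⟨1, 0⟩, 1)),
    (fromBlocks 0 (-1) 1 !![⟨1, 1⟩, 1; 1, ⟨1, 1⟩], (0, 1, ⟨0, 1⟩, 1)),
    (fromBlocks 0 (-1) 1 !![⟨0, 1⟩, 1; 1, ⟨0, 1⟩], (0, 1, ⟨1, 1⟩, 1))]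

theorem good4 : l4.all good = true := by decide +kernel
theorem nodup4 : (l4.map fun x => inv4 [⟨0, 0⟩, ⟨1, 0⟩, ⟨0, 1⟩, ⟨1, 1⟩] x.1).Nodup := by decide +kernel

/-- `q = 4` -/
theorem big_four {F : Type} [Field F] [Fintype F] (hF : Fintype.card F = 4) : Big (Cfsg.PSp 2 F) := by
  have h4 : Fintype.card F4 = 2 ^ 2 := Cfsg.Agent.H674.Explicit.card_QF 2 1 1
  have : Fact (Nat.Prime 2) := ⟨by norm_num⟩
  have hch : CharP F4 2 := charP_of_card_eq_prime_pow h4
  refine Big.of_equiv (FieldTransfer.pspCongr 2 (FiniteField.ringEquivOfCardEq (hF.trans h4.symm))) ?_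
  exact big_of_list (p := 2) le_rfl (fun _ => by rw [h4]; norm_num) _ (inv4_sim sq_eq _) l4
    (fun M hM => List.all_eq_true.1 good4 M hM) nodup4 (by decide)

end Four

/-! ### `q ≥ 8` -/

section Large

open Cfsg.Agent.H93.PspCharpoly

/-- a Jordan block for the eigenvalue one -/
theorem dvd_of_vec {F ι : Type*} [Field F] [Fintype ι] [DecidableEq ι] {p : ℕ} [CharP F p]
    {M : Matrix ι ι F} {v w : ι → F} (hv : M *ᵥ v = v + w) (hw : M *ᵥ w = w) (hw0 : w ≠ 0) {o : ℕ} {c : F}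
    (h : M ^ o = c • (1 : Matrix ι ι F)) : p ∣ o := by
  have h1 : ∀ k : ℕ, (M ^ k) *ᵥ w = w := by
    intro k
    induction k with
    | zero => rw [pow_zero, Matrix.one_mulVec]
    | succ k ih => rw [pow_succ, ← Matrix.mulVec_mulVec, hw, ih]
  have h2 : ∀ k : ℕ, (M ^ k) *ᵥ v = v + (k : F) • w := by
    intro k
    induction k with
    | zero => rw [pow_zero, Matrix.one_mulVec, Nat.cast_zero, zero_smul, add_zero]
    | succ k ih =>
      rw [pow_succ, ← Matrix.mulVec_mulVec, hv, Matrix.mulVec_add, ih, h1, Nat.cast_add, Nat.cast_one,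
        add_smul, one_smul, add_assoc]
  have h3 := h1 o
  rw [h, Matrix.smul_mulVec, Matrix.one_mulVec] at h3
  have hc : c = 1 := by
    have h4 : (c - 1) • w = 0 := by rw [sub_smul, one_smul, h3, sub_self]
    rcases smul_eq_zero.1 h4 with h5 | h5
    · exact sub_eq_zero.1 h5
    · exact absurd h5 hw0
  have h4 := h2 o
  rw [h, hc, one_smul, Matrix.one_mulVec] at h4
  have h5 : (o : F) • w = 0 := by
    have := congrArg (fun u => u - v) h4
    simpa using this.symm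
  rcases smul_eq_zero.1 h5 with h6 | h6
  · exact (CharP.cast_eq_zero_iff F p o).1 h6
  · exact absurd h6 hw0

variable {F : Type} [Field F]

/-- the element `mS S` -/
def el2 (a b d : F) : symplecticGroup (Fin 2) F := ⟨mS (s2 a b d), mS_mem (s2_transpose a b d)⟩

/-- an eigenvector of `S` for the eigenvalue two -/
theorem dvd_el2 {p : ℕ} [CharP F p] {a b d : F} {u : Fin 2 → F} (hu : s2 a b d *ᵥ u = (2 : F) • u)
    (hu0 : u ≠ 0) : p ∣ orderOf (ps (el2 a b d)) := by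
  obtain ⟨c, -, h⟩ := scalar_of_ps' (by norm_num : 1 ≤ 2) (el2 a b d ^ orderOf (ps (el2 a b d)))
    (by rw [map_pow, pow_orderOf_eq_one])
  rw [map_pow] at h
  refine dvd_of_vec (M := cs (el2 a b d)) (v := Sum.elim u 0) (w := Sum.elim (-u) u) ?_ ?_ ?_ h
  · show mS (s2 a b d) *ᵥ _ = _
    rw [mS, fromBlocks_mulVec]
    ext i
    rcases i with i | i
    · simp only [Sum.elim_inl, Function.comp_def, Pi.add_apply, Sum.elim_inr]
      simp only [Matrix.zero_mulVec, Matrix.neg_mulVec, Matrix.one_mulVec, Pi.zero_apply, Pi.neg_apply]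
      ring
    · simp
  · show mS (s2 a b d) *ᵥ _ = _
    rw [mS, fromBlocks_mulVec]
    ext i
    rcases i with i | i
    · simp only [Sum.elim_inl, Function.comp_def, Sum.elim_inr, Pi.add_apply]
      simp only [Matrix.zero_mulVec, Matrix.neg_mulVec, Matrix.one_mulVec, Pi.zero_apply, Pi.neg_apply]
      ring
    · have := congrFun hu i
      simp only [Sum.elim_inr, Function.comp_def, Pi.add_apply, Sum.elim_inl, Matrix.one_mulVec]
      rw [this]
      simp
      ring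
  · intro h0
    apply hu0
    ext i
    exact congrFun h0 (Sum.inr i)

theorem tr_blocks (A B C D : Matrix (Fin 2) (Fin 2) F) : (fromBlocks A B C D).trace = A.trace + D.trace := by
  simp [Matrix.trace, Fintype.sum_sum_type]

theorem trace_mS (S : Matrix (Fin 2) (Fin 2) F) : (mS S).trace = S.trace := by
  rw [mS, tr_blocks, trace_zero, zero_add]

theorem trace_mS_sq (S : Matrix (Fin 2) (Fin 2) F) : (mS S * mS S).trace = (S * S).trace - 4 := by
  rw [mS, fromBlocks_multiply, tr_blocks]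
  simp only [mul_zero, mul_one, zero_add, mul_neg, trace_neg, trace_add, trace_one,
    Fintype.card_fin]
  norm_num
  ring

theorem sigma_eq {σ τ : F} (h : Sim (cs (el2 2 0 σ)) (cs (el2 2 0 τ))) : σ = τ := by
  obtain ⟨c, hc, h1⟩ := h.trace
  have h2 := h.trace_mul_self
  have e1 : ∀ s : F, (cs (el2 2 0 s)).trace = 2 + s := by
    intro s
    show (mS (s2 2 0 s)).trace = _
    rw [trace_mS, s2, trace_fin_two]
    simp
  have e2 : ∀ s : F, (cs (el2 2 0 s) * cs (el2 2 0 s)).trace = s ^ 2 := by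
    intro s
    show (mS (s2 2 0 s) * mS (s2 2 0 s)).trace = _
    rw [trace_mS_sq, s2, trace_fin_two]
    simp
    ring
  rw [e1, e1] at h1
  rw [e2, e2] at h2
  by_cases h20 : (2 : F) = 0
  · have hc1 : c = 1 := by
      have : (c - 1) ^ 2 = 0 := by linear_combination hc + (1 - c) * h20
      exact sub_eq_zero.1 (pow_eq_zero_iff two_ne_zero |>.1 this)
    rw [hc1] at h1
    linear_combination -h1
  · have h3 : (2 + τ) ^ 2 = (2 + σ) ^ 2 := by
      rw [h1]
      linear_combination ((2 + σ) ^ 2) * hc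
    have h4 : (2 : F) * (2 * (τ - σ)) = 0 := by linear_combination h3 - h2
    rcases mul_eq_zero.1 h4 with h5 | h5
    · exact absurd h5 h20
    · rcases mul_eq_zero.1 h5 with h6 | h6
      · exact absurd h6 h20
      · exact (sub_eq_zero.1 h6).symm

theorem dvd_sigma {p : ℕ} [CharP F p] (s : F) : p ∣ orderOf (ps (el2 2 0 s)) := by
  refine dvd_el2 (u := ![1, 0]) ?_ ?_
  · ext i
    fin_cases i <;> simp [s2, Matrix.mulVec, dotProduct]
  · intro h
    have := congrFun h 0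
    simp at this

/-- `q ≥ 9` -/
theorem big_nine {F : Type} [Field F] [Fintype F] (h9 : 9 ≤ Fintype.card F) : Big (Cfsg.PSp 2 F) := by
  obtain ⟨p, hp⟩ := CharP.exists F
  exact big_of_fam (p := p) le_rfl (fun _ => by omega) (fun s : F => el2 2 0 s) (fun i j h => sigma_eq h)
    (fun s => dvd_sigma s) h9

/-- `q = 8` -/
theorem big_eight {F : Type} [Field F] [Fintype F] (h8 : Fintype.card F = 8) : Big (Cfsg.PSp 2 F) := by
  have h2 : Fact (Nat.Prime 2) := ⟨by norm_num⟩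
  have hch : CharP F 2 := charP_of_card_eq_prime_pow (p := 2) (f := 3) (by rw [h8]; norm_num)
  have h20 : (2 : F) = 0 := CharTwo.two_eq_zero
  have h11 : (1 : F) + 1 = 0 := by rw [one_add_one_eq_two, h20]
  -- the regular unipotent element
  have key : ∀ s : F, ¬ Sim (cs (el2 2 0 s)) (cs (el2 (1 : F) 1 1)) := by
    intro s h
    obtain ⟨c, hc, h1⟩ := h.trace
    obtain ⟨φ, hφ, h3⟩ := h.exists_hom
    have h4 : cs (el2 (1 : F) 1 1) = φ (cs (el2 2 0 s)) := by
      rcases h3 with h3 | h3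
      · exact h3
      · have h5 : (-1 : F) = 1 := by linear_combination -h11
        rw [h3, ← one_smul F (-φ _), smul_neg, ← neg_smul, h5, one_smul]
    have hc1 : c = 1 := by
      have : (c - 1) ^ 2 = 0 := by linear_combination hc + (1 - c) * h20
      exact sub_eq_zero.1 (pow_eq_zero_iff two_ne_zero |>.1 this)
    have hs : s = 0 := by
      have e1 : (cs (el2 2 0 s)).trace = 2 + s := by
        show (mS (s2 2 0 s)).trace = _
        rw [trace_mS, s2, trace_fin_two]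
        simp
      have e2 : (cs (el2 (1 : F) 1 1)).trace = 1 + 1 := by
        show (mS (s2 1 1 1)).trace = _
        rw [trace_mS, s2, trace_fin_two]
        simp
      rw [e1, e2, hc1] at h1
      linear_combination -h1
    subst hs
    have e3 : (cs (el2 (2 : F) 0 0) - 1) * (cs (el2 (2 : F) 0 0) - 1) = 0 := by
      show (mS (s2 2 0 0) - 1) * (mS (s2 2 0 0) - 1) = 0
      have h6 : s2 (2 : F) 0 0 = 0 := by
        ext i j
        fin_cases i <;> fin_cases j <;> simp [s2, h20]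
      rw [h6, mS, ← fromBlocks_one, sub_eq_add_neg, fromBlocks_neg, fromBlocks_add, fromBlocks_multiply]
      rw [← fromBlocks_zero]
      have h7 : (-(1 : Matrix (Fin 2) (Fin 2) F)) = 1 := by
        ext i j
        fin_cases i <;> fin_cases j <;> simp <;> linear_combination -h11
      have h8 : (1 : Matrix (Fin 2) (Fin 2) F) + 1 = 0 := by
        ext i j
        fin_cases i <;> fin_cases j <;> simp [h11]
      congr 1 <;> simp [h7, h8]
    have e4 : (cs (el2 (1 : F) 1 1) - 1) * (cs (el2 (1 : F) 1 1) - 1) = 0 := by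
      rw [h4, ← map_one φ, ← map_sub, ← map_mul, e3, map_zero]
    have e5 := congrFun (congrFun e4 (Sum.inl 0)) (Sum.inr 1)
    simp [cs, el2, mS, s2, Matrix.mul_apply, Fin.sum_univ_two] at e5
  refine big_of_fam (p := 2) le_rfl (fun _ => by omega)
    (fun o : Option F => o.elim (el2 (1 : F) 1 1) (fun s => el2 2 0 s)) ?_ ?_ ?_
  · rintro (_ | i) (_ | j) h
    · rfl
    · exfalso
      refine key j ?_
      obtain ⟨P, Q, c, h1, h2, hc, h3⟩ := h
      refine ⟨Q, P, c, h2, h1, hc, ?_⟩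
      have h4 : cs (el2 2 0 j) = c • (P * cs (el2 (1 : F) 1 1) * Q) := h3
      rw [h4, Matrix.mul_smul, Matrix.smul_mul, smul_smul, hc, one_smul]
      calc cs (el2 (1 : F) 1 1) = (Q * P) * cs (el2 (1 : F) 1 1) * (Q * P) := by rw [h2, one_mul, mul_one]
        _ = _ := by simp only [mul_assoc]
    · exact absurd h (key i)
    · rw [sigma_eq h]
  · rintro (_ | s)
    · refine dvd_el2 (u := ![1, 1]) ?_ ?_
      · ext i
        fin_cases i <;> simp [s2, Matrix.mulVec, dotProduct, h11, h20]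
      · intro h
        have := congrFun h 0
        simp at this
    · exact dvd_sigma s
  · rw [Fintype.card_option, h8]

end Large

/-! ### `q = 3` -/

section Three

open Cfsg.Agent.H674.ExplicitCases Cfsg.Agent.H674.Explicit Cfsg.Agent.H674.SUTools Cfsg.Agent.H674.SUBlock

/-- nine `3`-singular elements of `SU_4(2)` -/
def lu : List (Matrix (Fin 4) (Fin 4) F4) :=
  [!![⟨0, 1⟩, 0, 0, 0; 0, ⟨1, 1⟩, 0, 0; 0, 0, 1, 0; 0, 0, 0, 1],
   !![⟨0, 1⟩, 0, 0, 0; 0, ⟨0, 1⟩, 0, 0; 0, 0, ⟨0, 1⟩, 0; 0, 0, 0, 1],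
   !![⟨1, 1⟩, 0, 0, 0; 0, ⟨1, 1⟩, 0, 0; 0, 0, ⟨1, 1⟩, 0; 0, 0, 0, 1],
   !![⟨0, 1⟩, 0, 0, 0; 0, ⟨0, 1⟩, 0, 0; 0, 0, ⟨1, 1⟩, 0; 0, 0, 0, ⟨1, 1⟩],
   !![0, ⟨0, 1⟩, 0, 0; ⟨0, 1⟩, 0, 0, 0; 0, 0, ⟨0, 1⟩, 0; 0, 0, 0, 1],
   !![0, ⟨1, 1⟩, 0, 0; ⟨1, 1⟩, 0, 0, 0; 0, 0, ⟨1, 1⟩, 0; 0, 0, 0, 1],
   !![0, 1, 0, 0; 1, 0, 0, 0; 0, 0, ⟨0, 1⟩, 0; 0, 0, 0, ⟨1, 1⟩],
   !![0, ⟨0, 1⟩, 0, 0; ⟨0, 1⟩, 0, 0, 0; 0, 0, ⟨1, 1⟩, 0; 0, 0, 0, ⟨1, 1⟩],
   !![0, 0, ⟨0, 1⟩, 0; 1, 0, 0, 0; 0, 1, 0, 0; 0, 0, 0, ⟨1, 1⟩]]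

/-- order divisible by three -/
def sing (M : Matrix (Fin 4) (Fin 4) F4) : Bool := decide (M ^ 18 = 1) && decide (M ^ 2 ≠ 1)

theorem good_lu : lu.all (fun M => Cfsg.Agent.H674.Explicit.good 2 M && sing M) = true := by decide +kernel

theorem nodup_lu : (lu.map (Cfsg.Agent.H674.Explicit.inv [3, 6])).Nodup := by decide +kernel

theorem big_su42 : Big (Cfsg.PSU 4 F4 2) := by
  classical
  have h4 : Fintype.card F4 = 2 ^ 2 := Cfsg.Agent.H674.Explicit.card_QF 2 1 1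
  have : Fact (Nat.Prime 3) := ⟨by norm_num⟩
  obtain ⟨e⟩ := Cfsg.Agent.S0822.result (F := F4) (K := ZMod 3) (by rw [h4]; norm_num) (ZMod.card 3)
  have hsimp : IsSimpleGroup (Cfsg.PSp 2 (ZMod 3)) :=
    Cfsg.Agent.S0270.result 2 le_rfl (fun _ => by rw [ZMod.card])
  have hsimp' : IsSimpleGroup (Cfsg.PSU 4 F4 2) := e.isSimpleGroup
  have hL : IsLieTypeChar 3 (Cfsg.PSU 4 F4 2) :=
    Or.inr (Or.inl ⟨ZMod 3, inferInstance, inferInstance, inferInstance, 2, le_rfl,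
      (fun _ => by rw [ZMod.card]), ⟨e⟩⟩)
  -- the centre of `SU_4(2)` is trivial
  have hpr : Function.Injective (pr : Cfsg.SU 4 F4 2 →* Cfsg.PSU 4 F4 2) := by
    rw [injective_iff_map_eq_one]
    intro x hx
    rw [pr_eq_one_iff] at hx
    have h5 : Nat.card (Subgroup.center (Cfsg.SU 4 F4 2)) = 1 := by
      rw [Cfsg.Agent.S0279.result h4 4 (by norm_num)]
      norm_num
    rw [Subgroup.card_eq_one] at h5
    rw [h5] at hx
    exact Subgroup.mem_bot.1 hx
  have hg : ∀ i : Fin lu.length, Cfsg.Agent.H674.Explicit.good 2 (lu.get i) = true ∧ sing (lu.get i) = true := by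
    intro i
    have h := List.all_eq_true.1 good_lu (lu.get i) (List.get_mem lu i)
    rwa [Bool.and_eq_true] at h
  choose x hx using fun i => exists_of_good h4 (hg i).1
  have hinj : ∀ i j, IsConj (pr (x i)) (pr (x j)) → i = j := by
    intro i j hij
    have h6 : IsConj (x i) (x j) := by
      obtain ⟨c, hc⟩ := isConj_iff.1 hij
      obtain ⟨d, rfl⟩ := pr_surjective c
      refine isConj_iff.2 ⟨d, hpr ?_⟩
      rw [map_mul, map_mul, map_inv, hc]
    obtain ⟨P, Q, h1, h2, h3⟩ := exists_similar h6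
    have h7 : Cfsg.Agent.H674.Explicit.inv [3, 6] (lu.get i) = Cfsg.Agent.H674.Explicit.inv [3, 6] (lu.get j) := by
      rw [← hx i, ← hx j, h3, inv_conj [3, 6] P Q _ h1 h2]
    have h5 := List.nodup_iff_injective_get.1 nodup_lu
    have h8 : (lu.map (Cfsg.Agent.H674.Explicit.inv [3, 6])).get (i.cast (by simp)) =
        (lu.map (Cfsg.Agent.H674.Explicit.inv [3, 6])).get (j.cast (by simp)) := by
      simpa using h7
    have h9 := h5 h8
    exact Fin.ext (by simpa [Fin.ext_iff] using h9)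
  refine big_of_lie (by norm_num : Nat.Prime 3) hL (Finset.univ.image fun i => pr (x i)) ?_ ?_ ?_
  · intro g hg h hh hc
    obtain ⟨i, -, rfl⟩ := Finset.mem_image.1 hg
    obtain ⟨j, -, rfl⟩ := Finset.mem_image.1 hh
    rw [hinj i j hc]
  · intro g hg'
    obtain ⟨i, -, rfl⟩ := Finset.mem_image.1 hg'
    rw [orderOf_injective _ hpr, ← orderOf_cm, hx i]
    have h1 := (hg i).2
    rw [sing, Bool.and_eq_true, decide_eq_true_eq, decide_eq_true_eq] at h1
    by_contra h3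
    have h5 : orderOf (lu.get i) ∣ 2 * 3 ^ 2 := orderOf_dvd_of_pow_eq_one h1.1
    have h6 : (orderOf (lu.get i)).Coprime (3 ^ 2) :=
      Nat.Coprime.pow_right _ ((Nat.coprime_comm.1 ((Nat.Prime.coprime_iff_not_dvd (by norm_num)).2 h3)))
    have h7 := h6.dvd_of_dvd_mul_right h5
    exact h1.2 (orderOf_dvd_iff_pow_eq_one.1 h7)
  · rw [Finset.card_image_of_injective]
    · decide
    · intro i j hij
      have h4 : pr (x i) = pr (x j) := hij
      exact hinj i j (by rw [h4])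

/-- `q = 3` -/
theorem big_three {F : Type} [Field F] [Fintype F] (hF : Fintype.card F = 3) : Big (Cfsg.PSp 2 F) := by
  have h4 : Fintype.card F4 = 2 ^ 2 := Cfsg.Agent.H674.Explicit.card_QF 2 1 1
  obtain ⟨e⟩ := Cfsg.Agent.S0822.result (F := F4) (K := F) (by rw [h4]; norm_num) hF
  exact Big.of_equiv e.symm big_su42

/-- `PSU_4(2)` -/
theorem big_psu42 {F : Type} [Field F] [Fintype F] (hF : Fintype.card F = 2 ^ 2) : Big (Cfsg.PSU 4 F 2) := by
  have h4 : Fintype.card F4 = 2 ^ 2 := Cfsg.Agent.H674.Explicit.card_QF 2 1 1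
  exact Big.of_equiv (FieldTransfer.psuCongr 4 2 (FiniteField.ringEquivOfCardEq (hF.trans h4.symm))) big_su42

end Three

/-- **`PSp_4(q)`, `q ≥ 3`** (task 802) -/
theorem big_psp4 {F : Type} [Field F] [Fintype F] (h : 3 ≤ Fintype.card F) : Big (Cfsg.PSp 2 F) := by
  have h6 : Fintype.card F ≠ 6 := by
    intro hF
    obtain ⟨p, hp⟩ := CharP.exists F
    obtain ⟨k, hpp, hk⟩ := FiniteField.card F p
    rw [hF] at hk
    have h3 : 2 = p := (Nat.prime_dvd_prime_iff_eq (by norm_num) hpp).1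
      (Nat.Prime.dvd_of_dvd_pow (by norm_num) (hk ▸ (by norm_num : 2 ∣ 6)))
    have h4 : 3 = p := (Nat.prime_dvd_prime_iff_eq (by norm_num) hpp).1
      (Nat.Prime.dvd_of_dvd_pow (by norm_num) (hk ▸ (by norm_num : 3 ∣ 6)))
    omega
  rcases Nat.lt_or_ge (Fintype.card F) 9 with h9 | h9
  · have : Fintype.card F = 3 ∨ Fintype.card F = 4 ∨ Fintype.card F = 5 ∨ Fintype.card F = 7 ∨
        Fintype.card F = 8 := by omega
    rcases this with h | h | h | h | h
    · exact big_three h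
    · exact big_four h
    · exact big_five h
    · exact big_seven h
    · exact big_eight h
  · exact big_nine h9

end Cfsg.Agent.H956.ZerosPSp4
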